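import Cfsg.Agent.Lib.PGV.Good
import Cfsg.Agent.Lib.HH.Reduce
import Cfsg.Agent.Lib.PLocal.Offender

/-!
# The `P(G,V)`-theorem
-/

set_option autoImplicit false

namespace Cfsg.Lib.PGV

open Subgroup Cfsg.Lib.BG Cfsg.Lib.Comp Cfsg.Lib.Transfer Cfsg.Lib.HH Cfsg.Lib.PLocal
open scoped commutatorElement

theorem Cfg.bound' {E K B : Type*} [Ring E] [Group K] [Group B] {k : K →* E} {a : E} {β : B →* E}
    {α : B → MulAut K} (h : Cfg k a β α) [Finite K] (hK : commutator K = ⊤)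
    (hq : ∀ N : Subgroup K, N.Normal → N = ⊤ ∨ N ≤ Subgroup.center K)
    {Γ₀ : Subgroup B} (hΓ : ∀ b, b ∈ Γ₀ ↔ ∀ x, α b x = x)
    (Y : Type*) [AddCommGroup Y] [Module E Y] [Finite Y] (hn : ∃ x, ∃ y : Y, k x • y ≠ y) :
    3 * Nat.card {y : Y // a • y = y} ≤ Nat.card Y ∧
      (Γ₀ ≠ ⊤ → 3 * Γ₀.index * Nat.card {y : Y // ∀ b, β b • y = y} ≤ Nat.card Y) := by
  let E' := Subring.closure (Set.range k ∪ {a} ∪ Set.range β)
  let k' : K →* E' := k.codRestrict E' fun x => Subring.subset_closure (.inl (.inl ⟨x, rfl⟩))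
  let a' : E' := ⟨a, Subring.subset_closure (.inl (.inr rfl))⟩
  let β' : B →* E' := β.codRestrict E' fun x => Subring.subset_closure (.inr ⟨x, rfl⟩)
  have h' : Cfg k' a' β' α :=
    ⟨Subtype.ext h.two, Subtype.ext h.a2, fun x y => Subtype.ext (h.cm x y),
      fun x => Subtype.ext (h.good x), fun b => Subtype.ext (h.ba b), fun b => Subtype.ext (h.q1 b),
      fun b c => Subtype.ext (h.q2 b c), fun b x => Subtype.ext (h.cj b x)⟩
  refine h'.bound hK hq hΓ (fun S h1 h2 h3 => eq_top_iff.2 fun e _ => ?_) Y hn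
  have : E' ≤ S.map E'.subtype := Subring.closure_le.2 (by
    rintro _ ((⟨x, rfl⟩ | rfl) | ⟨b, rfl⟩)
    exacts [⟨_, h1 x, rfl⟩, ⟨_, h2, rfl⟩, ⟨_, h3 b, rfl⟩])
  obtain ⟨s, hs, e'⟩ := this e.2
  exact (Subtype.ext e' : s = e) ▸ hs

variable {p : ℕ} [hp : Fact p.Prime] {G W : Type*} [Group G] [Finite G] [AddCommGroup W] [Finite W]
  [Module (ZMod p) W] {σ : G →* Module.End (ZMod p) W}

omit [Finite G] in
theorem pgroup_vec (U : Submodule (ZMod p) W) : IsPGroup p (vec σ U) :=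
  IsPGroup.of_card (by rw [card_vec, Module.natCard_eq_pow_finrank (K := ZMod p), Nat.card_zmod])

omit [Finite G] [Finite W] in
theorem offMeasure_vec (B : Subgroup G) :
    offMeasure (vec σ ⊤) (B.map (el σ)) = Nat.card B * Nat.card (fix σ B) := by
  rw [offMeasure, vec_inf_cent, card_vec, top_inf_eq, card_map_of_injective el_injective]

/-- The replacement theorem for modules. -/
theorem exists_quadratic {A : Subgroup G} (hA : IsElementaryAbelian p A)
    (hmax : ∀ B ≤ A, Nat.card B * Nat.card (fix σ B) ≤ Nat.card A * Nat.card (fix σ A))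
    (h0 : ¬ A ≤ fixer σ ⊤) : ∃ B ≤ A, (∀ a ∈ A, B ≤ lann σ (σ a - 1)) ∧ ¬ B ≤ fixer σ ⊤ ∧
      Nat.card B * Nat.card (fix σ B) = Nat.card A * Nat.card (fix σ A) := by
  have hn : A.map (el σ) ≤ 𝐍(vec σ ⊤) := Inv.norm_vec fun _ _ _ _ => trivial
  have ex : ∀ B ≤ A.map (el σ), ∃ B' ≤ A, B'.map (el σ) = B := fun B hB =>
    ⟨B.comap (el σ), (map_le_map_iff_of_injective el_injective).1 ((map_comap_le _ _).trans hB),
      map_comap_eq_self (hB.trans (map_le_range _ _))⟩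
  obtain ⟨h1, h2⟩ := replacement_of_max (abelian_vec ⊤) hn
    (by rw [abelian_iff_der.1 (abelian_map _ hA.1)]; exact bot_le) (fun B hB => by
      obtain ⟨B, hB', rfl⟩ := ex B hB
      rw [offMeasure_vec, offMeasure_vec]; exact hmax B hB') le_rfl
  have h3 := commutator_replacement_ne_bot (pgroup_vec ⊤) (abelian_vec ⊤) hn (by
    rintro _ ⟨a, ha, rfl⟩
    exact ⟨1, by rw [pow_one, ← map_pow, hA.2 a ha, map_one]; exact one_mem _⟩) le_rfl h1
    fun e => h0 (cent_vec_iff.1 (comm_eq_bot_iff'.1 e))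
  obtain ⟨B, hB, e⟩ := ex _ (inf_le_left (b := 𝐂(⁅vec σ ⊤, A.map (el σ)⁆)))
  rw [← e] at h2 h3
  rw [offMeasure_vec, offMeasure_vec] at h2
  refine ⟨B, hB, fun a ha b hb => LinearMap.ext fun w => ?_,
    fun h => h3 (comm_eq_bot_iff'.2 (cent_vec_iff.2 h)), h2⟩
  have h4 := mem_cent.1 ((e.le.trans inf_le_right) (mem_map_of_mem _ hb)) _
    (comm_mem_comm (mem_vec.2 ⟨-w, trivial, rfl⟩) (mem_map_of_mem _ ha))
  rw [mul_assoc _ (el σ a), mul_assoc _ (el σ a * _), ← map_inv SemidirectProduct.inl, ← ofAdd_neg,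
    neg_neg, el_conj, ← map_mul, ← ofAdd_add, neg_add_eq_sub] at h4
  exact el_comm_iff.1 h4.symm

omit [Finite G] [Finite W] in
theorem card_le_mul {B N : Subgroup G} {b : G} (hb : b ∈ B) (hbp : b ^ p = 1) [Finite B]
    (h : ∀ c ∈ B, ∃ i : ℕ, b ^ i * c ∈ N) : Nat.card B ≤ p * Nat.card ↥(B ⊓ N) := by
  haveI : Finite ↥(B ⊓ N) := Finite.of_injective _ (inclusion_injective inf_le_left)
  have := Nat.card_le_card_of_surjective (fun t : Fin p × ↥(B ⊓ N) =>
    (⟨(b ^ (t.1 : ℕ))⁻¹ * t.2, mul_mem (inv_mem (pow_mem hb _)) t.2.2.1⟩ : B)) fun c => by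
      obtain ⟨i, hi⟩ := h c c.2
      rw [pow_eq_pow_mod i hbp] at hi
      exact ⟨(⟨i % p, Nat.mod_lt _ hp.out.pos⟩, ⟨_, mul_mem (pow_mem hb _) c.2, hi⟩), by simp⟩
  simpa using this

omit [Finite G] in
theorem good_of_small {K : Subgroup G} (hK : IsComponent K) {a : G} (ha : a ^ p = 1)
    (hn : a ∉ 𝐍(K)) (h : Nat.card W ≤ p * Nat.card {w : W // σ a w = w}) : Good σ p K a := by
  have h1 : Nat.card (LinearMap.range (σ a - 1)) ≤ p := by
    have h2 := (LinearMap.ker (σ a - 1)).card_eq_card_quotient_mul_card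
    rw [Nat.card_congr (LinearMap.quotKerEquivRange _).toEquiv] at h2
    rw [h2, mul_comm, Nat.card_congr (Equiv.subtypeEquivRight (p := fun w => σ a w = w)
      (q := (· ∈ LinearMap.ker (σ a - 1))) fun w => by simp [sub_eq_zero])] at h
    exact Nat.le_of_mul_le_mul_right h Nat.card_pos
  rw [Module.natCard_eq_pow_finrank (K := ZMod p), Nat.card_zmod] at h1
  obtain ⟨u, hu⟩ := finrank_le_one_iff.1 ((Nat.pow_le_pow_iff_right hp.out.one_lt).1
    (h1.trans (pow_one p).ge))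
  have cm : ∀ g, Commute a g → σ g * (σ a - 1) = (σ a - 1) * σ g := fun g hg =>
    ((hg.symm.map σ).sub_right (Commute.one_right _)).eq
  have sc : ∀ g, Commute a g → ∃ c : ZMod p, σ g * (σ a - 1) = c • (σ a - 1) := fun g hg => by
    obtain ⟨w, hw⟩ := u.2
    obtain ⟨c, hc⟩ := hu ⟨σ g u, σ g w, by
      rw [← hw, ← Module.End.mul_apply, ← cm g hg, Module.End.mul_apply]⟩
    refine ⟨c, LinearMap.ext fun v => ?_⟩
    obtain ⟨d, hd⟩ := hu ⟨_, v, rfl⟩
    have hd' : (σ a - 1) v = d • (u : W) := (congrArg Subtype.val hd).symm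
    have hc' : σ g u = c • (u : W) := (congrArg Subtype.val hc).symm
    rw [Module.End.mul_apply, LinearMap.smul_apply, hd', map_smul, hc', smul_comm]
  refine good_of_comm hK ha hn fun x hx y hy => ?_
  have hg := dd_comm_a hK ha hn hx
  have hh := dd_comm_a hK ha hn hy
  generalize dd a p x = g at hg
  generalize dd a p y = t at hh
  obtain ⟨c, hc⟩ := sc g hg
  obtain ⟨d, hd⟩ := sc t hh
  have e : σ (g * t) * (σ a - 1) = σ (t * g) * (σ a - 1) := by
    rw [map_mul, map_mul, mul_assoc, mul_assoc, hc, hd, mul_smul_comm, mul_smul_comm, hc, hd,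
      smul_comm]
  rw [mem_lann, commutatorElement_def, mul_assoc (g * t), map_mul, mul_assoc,
    cm _ (hg.inv_right.mul_right hh.inv_right), ← mul_assoc, e, mul_assoc,
    ← cm _ (hg.inv_right.mul_right hh.inv_right), ← mul_assoc, ← map_mul]
  simp

theorem cfg_two {W : Type*} [AddCommGroup W] [Finite W] [Module (ZMod 2) W]
    {σ : G →* Module.End (ZMod 2) W} {K B : Subgroup G} (hK : IsComponent K)
    (hK0 : ¬ K ≤ fixer σ ⊤) {a : G} (ha : a ^ 2 = 1) (hn : a ∉ 𝐍(K)) (hg : Good σ 2 K a)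
    (hB : B ≤ 𝐍(K)) (hab : ∀ b ∈ B, Commute b a) (h1 : B ≤ lann σ (σ a - 1))
    (h2 : ∀ b ∈ B, B ≤ lann σ (σ b - 1)) :
    3 * Nat.card {w : W // σ a w = w} ≤ Nat.card W ∧
      (¬ B ≤ 𝐂(K) → 3 * 𝐂(K).relIndex B * Nat.card (fix σ B) ≤ Nat.card W) := by
  have two : (1 : Module.End (ZMod 2) W) + 1 = 0 := by
    rw [← two_smul (ZMod 2), show (2 : ZMod 2) = 0 from rfl, zero_smul]
  have sub : ∀ e : Module.End (ZMod 2) W, e - 1 = e + 1 := fun e => by
    rw [sub_eq_add_neg, neg_eq_of_add_eq_zero_left two]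
  have ai : a⁻¹ = a := inv_eq_of_mul_eq_one_right (by rw [← sq, ha])
  let α : B → MulAut K := fun b => K.normalizerMonoidHom ⟨b, hB b.2⟩
  have hα : ∀ (b : B) (x : K), (α b x : G) = b * x * (b : G)⁻¹ := fun _ _ => rfl
  have h : Cfg (σ.comp K.subtype) (σ a) (σ.comp B.subtype) α :=
    { two := two
      a2 := by rw [← map_mul, ← sq, ha, map_one]
      cm := fun x y => by
        simpa [ai] using (Commute.map (mem_cent.1 (mem_cent_of_not_norm hK hn y.2) x x.2) σ).eq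
      good := fun x => by
        simpa [dd, ha, sub, pow_two ((x : G) * a), mul_assoc] using mem_lann.1 (hg x x.2)
      ba := fun b => ((hab b b.2).map σ).eq
      q1 := fun b => sub _ ▸ h1 b.2
      q2 := fun b c => sub _ ▸ h2 c c.2 b.2
      cj := fun b x => by
        show σ b * σ x = σ (α b x) * σ b
        rw [hα, ← map_mul, ← map_mul, inv_mul_cancel_right] }
  obtain ⟨h3, h4⟩ := h.bound' (isQuasisimple_commutator_eq_top hK.2)
    (fun N _ => isQuasisimple_normal hK.2 N) (Γ₀ := 𝐂(K).subgroupOf B) (fun b =>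
      ⟨fun hb x => Subtype.ext (by
        rw [hα, ← mem_cent.1 (mem_subgroupOf.1 hb) x x.2, mul_inv_cancel_right]),
        fun hb => mem_cent.2 fun x hx => by
          have := congrArg Subtype.val (hb ⟨x, hx⟩)
          rw [hα] at this
          exact (mul_inv_eq_iff_eq_mul.1 this).symm⟩) W (by
      by_contra hh; push Not at hh; exact hK0 fun x hx w _ => hh ⟨x, hx⟩ w)
  refine ⟨h3, fun hc => ?_⟩
  rw [Nat.card_congr (Equiv.subtypeEquivRight (p := (· ∈ fix σ B))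
    (q := fun y => ∀ b : B, (σ.comp B.subtype) b • y = y)
    fun w => ⟨fun h b => h b b.2, fun h b hb => h ⟨b, hb⟩⟩)]
  exact h4 fun e => hc (subgroupOf_eq_top.1 e)

theorem core {K A : Subgroup G} (hK : IsComponent K) (hK0 : ¬ K ≤ fixer σ ⊤)
    (hA : IsElementaryAbelian p A) (hA0 : A ⊓ 𝐂(K) ≤ fixer σ ⊤)
    (hmax : ∀ B ≤ A, Nat.card B * Nat.card (fix σ B) ≤ Nat.card A * Nat.card (fix σ A)) :
    A ≤ 𝐍(K) := fun a₀ ha₀ => by
  by_contra hn₀
  have triv : ¬ ∀ x ∈ K, σ x = 1 := fun h => hK0 fun x hx w _ => by rw [h x hx]; rfl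
  have cA : ∀ a ∈ A, ∀ b ∈ A, Commute a b := fun a ha b hb => PGroup.elemAb_comm hA ha hb
  obtain ⟨B, hB, hq, hB0, hce⟩ := exists_quadratic hA hmax fun h => by
    obtain ⟨x, hx, hxc⟩ := exists_not_cent hK
    have hi : K ≤ 𝐍(fixer σ ⊤) := Inv.norm_fixer fun _ _ _ _ => trivial
    refine hK0 (le_of_mul_mem hK hi hxc (mem_cent_of_not_norm hK hn₀ (inv_mem hx)) ?_)
    simpa [mul_assoc] using mul_mem (conj_mem_of_norm (hi hx) (h ha₀)) (inv_mem (h ha₀))
  have hW : Nat.card ↥(A ⊓ 𝐂(K)) * Nat.card W ≤ Nat.card B * Nat.card (fix σ B) := by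
    have := hmax _ (inf_le_left (b := 𝐂(K)))
    rwa [eq_top_iff.2 (le_fixer_iff.1 hA0), Nat.card_congr Submodule.topEquiv.toEquiv,
      ← hce] at this
  have near : ∀ b ∈ B, b ∉ 𝐍(K) → ∀ c ∈ B, ∃ i : ℕ, b ^ i * c ∈ 𝐍(K) := fun b hb hn c hc => by
    by_contra hh
    push Not at hh
    have hg : Good σ p K b :=
      good_of_far hK (hA.2 b (hB hb)) hn (cA c (hB hc) b (hB hb)) hh (hq b (hB hb) hc)
    by_cases h2 : p = 2
    swap
    · exact triv (hg.triv_odd hK (hA.2 b (hB hb)) hn h2)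
    subst h2
    have hn' : c ∉ 𝐍(K) := by simpa using hh 0
    have hbc : b * c ∉ 𝐍(K) := by simpa using hh 1
    refine triv (hg.triv_two hK (hA.2 b (hB hb)) (hA.2 c (hB hc)) hn hn' (cA b (hB hb) c (hB hc))
      hbc (good_of_far hK (hA.2 c (hB hc)) hn' (cA b (hB hb) c (hB hc)) (fun i => ?_)
        (hq c (hB hc) hb)))
    rw [pow_eq_pow_mod i (hA.2 c (hB hc))]
    rcases Nat.mod_two_eq_zero_or_one i with h | h <;> rw [h]
    · simpa using hn
    · rwa [pow_one, (cA c (hB hc) b (hB hb)).eq]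
  have hidx : Nat.card B ≤ p * Nat.card ↥(B ⊓ 𝐍(K)) := by
    by_cases h : B ≤ 𝐍(K)
    · exact card_le_mul (one_mem B) (one_pow p) fun c hc => ⟨0, by simpa using h hc⟩
    · obtain ⟨b, hb, hn⟩ := SetLike.not_le_iff_exists.1 h
      exact card_le_mul hb (hA.2 b (hB hb)) (near b hb hn)
  have hB₁ : B ⊓ 𝐍(K) ≤ A := inf_le_left.trans hB
  have two : ∀ a ∈ A, a ∉ 𝐍(K) → Good σ p K a → p = 2 ∧
      3 * Nat.card {w : W // σ a w = w} ≤ Nat.card W ∧ (¬ B ⊓ 𝐍(K) ≤ 𝐂(K) →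
        3 * 𝐂(K).relIndex (B ⊓ 𝐍(K)) * Nat.card (fix σ (B ⊓ 𝐍(K))) ≤ Nat.card W) :=
    fun a ha hn hg => by
      obtain rfl : p = 2 := by_contra fun h2 => triv (hg.triv_odd hK (hA.2 a ha) hn h2)
      exact ⟨rfl, cfg_two hK hK0 (hA.2 a ha) hn hg inf_le_right (fun b hb => cA b (hB₁ hb) a ha)
        (inf_le_left.trans (hq a ha)) fun b hb => inf_le_left.trans (hq b (hB₁ hb))⟩
  have pos : 0 < Nat.card ↥(A ⊓ 𝐂(K)) := Nat.card_pos
  have posW : 0 < Nat.card W := Nat.card_pos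
  by_cases h : B ⊓ 𝐍(K) ≤ 𝐂(K)
  · obtain ⟨b, hb, hb0⟩ := SetLike.not_le_iff_exists.1 hB0
    have hn : b ∉ 𝐍(K) := fun e => hb0 (hA0 ⟨hB hb, h ⟨hb, e⟩⟩)
    have h1 : Nat.card W ≤ p * Nat.card {w : W // σ b w = w} := by
      have h2 := card_le_of_le (le_inf hB₁ h)
      have h3 : Nat.card (fix σ B) ≤ Nat.card {w : W // σ b w = w} :=
        Nat.card_le_card_of_injective (fun w => ⟨w.1, w.2 b hb⟩) fun _ _ e =>
          Subtype.ext (congrArg (fun t => t.1) e)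
      refine Nat.le_of_mul_le_mul_left (hW.trans ?_) pos
      rw [mul_left_comm, ← mul_assoc]
      exact Nat.mul_le_mul (hidx.trans (Nat.mul_le_mul_left _ h2)) h3
    obtain ⟨rfl, h2, -⟩ := two b (hB hb) hn (good_of_small hK (hA.2 b (hB hb)) hn h1)
    omega
  · obtain ⟨rfl, -, h2⟩ := two a₀ ha₀ hn₀ (good_of_norm hK (hA.2 a₀ ha₀) hn₀ inf_le_right h
      (fun b hb => cA b (hB₁ hb) a₀ ha₀) (inf_le_left.trans (hq a₀ ha₀)))
    have h3 := h2 h
    have h4 := Core.card_inf_mul_relIndex 𝐂(K) (B ⊓ 𝐍(K))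
    have h5 : Nat.card ↥(𝐂(K) ⊓ (B ⊓ 𝐍(K))) ≤ Nat.card ↥(A ⊓ 𝐂(K)) :=
      card_le_of_le (le_inf (inf_le_right.trans hB₁) inf_le_left)
    have h6 : Nat.card (fix σ B) ≤ Nat.card (fix σ (B ⊓ 𝐍(K))) :=
      Nat.card_le_card_of_injective _ (Submodule.inclusion_injective (fix_anti inf_le_left))
    have h7 := hW.trans (Nat.mul_le_mul (hidx.trans (Nat.mul_le_mul_left _
      (h4.ge.trans (Nat.mul_le_mul_right _ h5)))) h6)
    rw [mul_left_comm, mul_assoc] at h7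
    have := Nat.le_of_mul_le_mul_left h7 pos
    rw [mul_assoc] at this h3
    omega

/-- The `P(G,V)`-theorem. -/
theorem le_norm_of_best (hσ : Function.Injective σ) {K A : Subgroup G} (hK : IsComponent K)
    (hA : IsElementaryAbelian p A)
    (hmax : ∀ B ≤ A, Nat.card B * Nat.card (fix σ B) ≤ Nat.card A * Nat.card (fix σ A)) :
    A ≤ 𝐍(K) := by
  set A₀ := A ⊓ 𝐂(K)
  have hKH : K ≤ 𝐂(A₀) := cent_symm inf_le_right
  have hAH : A ≤ 𝐂(A₀) := abelian_cent' hA.1 le_rfl inf_le_left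
  let τ : 𝐂(A₀) →* Module.End (ZMod p) (fix σ A₀) :=
    Representation.subrepresentation (σ.comp 𝐂(A₀).subtype) (fix σ A₀) fun g _ hv =>
      inv_fix (cent_le_norm A₀) g g.2 _ hv
  have hτ : ∀ g v, (τ g v : W) = σ g v := fun _ _ => rfl
  have cf : ∀ B : Subgroup 𝐂(A₀),
      Nat.card (fix τ B) = Nat.card (fix σ (B.map 𝐂(A₀).subtype ⊔ A₀)) := fun B => by
    rw [Nat.card_congr (Submodule.equivMapOfInjective _ (fix σ A₀).injective_subtype
      (fix τ B)).toEquiv]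
    congr 2
    refine le_antisymm (le_fixer_iff.1 (sup_le ?_ ?_)) fun v hv => ?_
    · rintro _ ⟨b, hb, rfl⟩ _ ⟨v, hv, rfl⟩
      exact congrArg Subtype.val (hv b hb)
    · rintro a ha _ ⟨v, -, rfl⟩
      exact v.2 a ha
    · exact ⟨⟨v, fix_anti le_sup_right hv⟩, fun b hb =>
        Subtype.ext (fix_anti le_sup_left hv _ (mem_map_of_mem _ hb)), rfl⟩
  have h := core (σ := τ) (isComponent_subgroupOf hK hKH) (fun h => ?_)
    (PGroup.elemAb_subgroupOf hA 𝐂(A₀)) (fun a ha v _ => Subtype.ext (v.2 a ⟨ha.1, mem_cent.2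
      fun x hx => congrArg Subtype.val (mem_cent.1 ha.2 ⟨x, hKH hx⟩ hx)⟩)) fun B hB => ?_
  · exact le_norm_iff.2 fun a ha x hx =>
      conj_mem_of_norm (h (show (⟨a, hAH ha⟩ : 𝐂(A₀)) ∈ _ from ha)) (x := ⟨x, hKH hx⟩) hx
  · refine isQuasisimple_not_isSolvable hK.2 
      (Char.isSolvable_of_forall_prime_dvd _ p p fun q hq hd => .inl ?_)
    by_contra hqp
    haveI := Fact.mk hq
    obtain ⟨x, hx⟩ := exists_prime_orderOf_dvd_card' q hd
    have h1 : zpowers (x : G) ≤ K := zpowers_le.2 x.2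
    have h2 := Coprime.p_times_q (P := A₀.map (el σ)) (Q := (zpowers (x : G)).map (el σ))
      (U := vec σ ⊤) ((PGroup.elemAb_isPGroup (PGroup.elemAb_of_le hA inf_le_left)).map _) (by
        rw [card_map_of_injective el_injective, Nat.card_zpowers, orderOf_coe, hx]
        exact (Nat.coprime_primes hq hp.out).2 hqp) (pgroup_vec ⊤)
      (map_cent _ (cent_mono inf_le_right le_rfl h1)) (Inv.norm_vec fun _ _ _ _ => trivial)
      (Inv.norm_vec fun _ _ _ _ => trivial) (by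
        rw [vec_inf_cent]
        exact cent_symm (cent_vec_iff.2 fun g hg v hv => congrArg Subtype.val
          (h (x := ⟨g, hKH (h1 hg)⟩) (h1 hg) ⟨v, hv.2⟩ trivial)))
    have h3 := cent_vec_iff.1 h2 (mem_zpowers _)
    rw [fixer_top_eq_bot hσ, mem_bot] at h3
    rw [← orderOf_coe, h3, orderOf_one] at hx
    exact hq.one_lt.ne hx
  · have h1 : B.map 𝐂(A₀).subtype ⊔ A₀ ≤ A := sup_le (map_le_iff_le_comap.2 hB) inf_le_left
    rw [cf, cf, subgroupOf_map_subtype, inf_eq_left.2 hAH, sup_eq_left.2 (inf_le_left : A₀ ≤ A),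
      Nat.card_congr (subgroupOfEquivOfLe hAH).toEquiv, ← card_subtype]
    exact (Nat.mul_le_mul_right _ (card_le_of_le le_sup_left)).trans (hmax _ h1)

end Cfsg.Lib.PGV
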